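import Cfsg.Agent.H587.NRow.Crit
import Cfsg.Agent.H531.RMPsp
import Cfsg.Agent.H531.FMOrth
import Cfsg.Agent.H356.KillPSU
import Cfsg.Agent.H124.SUThreeEig
import Cfsg.Agent.H127.PSUThreeEx
import Cfsg.Agent.PLocal.PSolvable
import Cfsg.Prelude.Def_LieTypeChar

/-!
# S4307, row R3 for the classical groups (task 1377, helper587)

`q` an odd prime dividing `ρ - 1`, `ρ` the characteristic of `F`: `¬ NCtx' q T` for `T = PSL_n(F)` (`n ≥ 3`),
`PSp_2m(F)` (`m ≥ 2`), `PSU_n(F)` (`n ≥ 3`), `POmega`.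
-/

set_option autoImplicit false

namespace Cfsg.Agent.H587.NRow

open Subgroup Cfsg.Agent.H506.NRow Cfsg.Agent.ChevalleyStructure.SL2Hom

section congr

variable {T U : Type*} [Group T] [Group U]

theorem nice_of_equiv [Finite T] {q : ℕ} [Fact q.Prime] (e : T ≃* U) {x : T} (h : Nice q x) : Nice q (e x) := by
  obtain ⟨h1, Q, h2, h3⟩ := h
  have hc := map_centralizer e x
  refine ⟨?_, Q.mapSurjective (f := e.toMonoidHom) e.surjective, ?_, ?_⟩
  · rw [← hc]
    exact (Cfsg.Agent.PLocal.PSolvable.isPSolvable_congr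
      (e.subgroupMap (centralizer ({x} : Set T)))).1 h1
  · rintro _ ⟨y, hy, rfl⟩
    show e y * e x = e x * e y
    rw [← map_mul, h2 y hy, map_mul]
  · rintro f hf hfq hfd M hM hMc hMn _ ⟨y, hy, rfl⟩ m hm
    have k1 : IsPGroup f ↥(M.comap e.toMonoidHom) := hM.comap_of_injective _ e.injective
    have k2 : M.comap e.toMonoidHom ≤ centralizer ({x} : Set T) := by
      intro z hz
      have h4 := hMc hz
      rw [mem_centralizer_singleton_iff] at h4 ⊢
      apply e.injective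
      rw [map_mul, map_mul]
      exact h4
    have k3 : ∀ y ∈ Q, y ∈ normalizer ((M.comap e.toMonoidHom : Subgroup T) : Set T) := by
      intro z hz
      have h4 := hMn (e z) ⟨z, hz, rfl⟩
      rw [mem_normalizer_iff] at h4 ⊢
      intro w
      have h5 := h4 (e w)
      rw [← map_inv, ← map_mul, ← map_mul] at h5
      exact h5
    have h6 := h3 f hf hfq hfd _ k1 k2 k3 y hy (e.symm m) (by
      show e (e.symm m) ∈ M
      rw [MulEquiv.apply_symm_apply]; exact hm)
    have h7 := congrArg e h6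
    rw [map_mul, map_mul, MulEquiv.apply_symm_apply] at h7
    exact h7

theorem ctx_of_equiv [Finite T] {q : ℕ} (e : T ≃* U) (h : NCtx' q T) : NCtx' q U := by
  have : Fact q.Prime := ⟨h.prime⟩
  refine ⟨h.prime, h.odd, ?_, ?_, ?_⟩
  · rw [← Nat.card_congr e.toEquiv]; exact h.dvd
  · intro Q x hx y hy
    have : Finite U := Finite.of_equiv T e.toEquiv
    have h1 := h.ab (Q.mapSurjective (f := e.symm.toMonoidHom) e.symm.surjective) (e.symm x) ⟨x, hx, rfl⟩
      (e.symm y) ⟨y, hy, rfl⟩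
    rw [← map_mul, ← map_mul] at h1
    exact e.symm.injective h1
  · intro f hf hf2 M hM hMc
    obtain ⟨x, hx, ho, hn⟩ := h.noncyc f hf hf2 (M.comap e.toMonoidHom) (hM.comap_of_injective _ e.injective) (by
      intro hc
      apply hMc
      have e1 : ↥(M.comap e.toMonoidHom) ≃* M :=
        MulEquiv.ofBijective (e.toMonoidHom.subgroupComap M)
          ⟨fun a b hab => Subtype.ext (e.injective (congrArg Subtype.val hab)), fun b => ⟨⟨e.symm b.1, by
            show e (e.symm b.1) ∈ M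
            rw [MulEquiv.apply_symm_apply]; exact b.2⟩, Subtype.ext (MulEquiv.apply_symm_apply _ _)⟩⟩
      exact isCyclic_of_surjective e1 e1.surjective)
    refine ⟨e x, hx, ?_, nice_of_equiv e hn⟩
    rw [MulEquiv.orderOf_eq, ho]

end congr

/-- an odd characteristic -/
theorem charP_data {F : Type*} [Field F] [Finite F] {ρ : ℕ} [CharP F ρ] : ρ.Prime :=
  CharP.char_is_prime F ρ

section psl

open Cfsg.Agent.KFacts.MulOdd.TypeA Cfsg.Agent.TitsThree.KSideA

variable {F : Type*} [Field F] {ρ q n : ℕ}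

theorem tv_eq_one {ι : Type} [Fintype ι] [DecidableEq ι] {a b : ι} (hab : a ≠ b) {t : F}
    (h : tv a b t = (1 : Matrix.SpecialLinearGroup ι F)) : t = 0 := by
  rw [tv_of_ne hab] at h
  have h1 := congrFun (congrFun (congrArg Subtype.val h) a) b
  have h2 : ((1 : Matrix ι ι F) + Matrix.single a b t) a b = (1 : Matrix ι ι F) a b := h1
  rw [Matrix.add_apply, Matrix.one_apply_ne hab, zero_add, Matrix.single_apply] at h2
  simpa using h2

theorem up_eq_tv (t : F) : (up t : Matrix.SpecialLinearGroup (Fin 2) F) = tv 0 1 t := by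
  rw [tv_of_ne (by decide)]
  apply Subtype.ext
  show !![(1 : F), t; 0, 1] = (1 : Matrix (Fin 2) (Fin 2) F) + Matrix.single 0 1 t
  ext i j
  fin_cases i <;> fin_cases j <;> simp

theorem semi_tv [CharP F ρ] {ι : Type} [Fintype ι] [DecidableEq ι] (hρ : ρ.Prime) {a b : ι} (hab : a ≠ b) (t : F) :
    Semi ρ (tv a b t : Matrix.SpecialLinearGroup ι F) := by
  have h1 := (semi_up (K := F) hρ t).map (blk hab)
  rwa [up_eq_tv, blk_tv] at h1

/-- **The linear groups.** -/
theorem psl [Finite F] [CharP F ρ] (hn : 3 ≤ n) (hd : q ∣ ρ - 1) (h : NCtx' q (Matrix.ProjectiveSpecialLinearGroup (Fin n) F)) : False := by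
  have hρ : ρ.Prime := charP_data (F := F)
  have hfin : Finite (Matrix.SpecialLinearGroup (Fin n) F) := inferInstance
  have hfin' : Finite (Matrix.ProjectiveSpecialLinearGroup (Fin n) F) := Quotient.finite _
  let a : Fin n := ⟨0, by omega⟩
  let b : Fin n := ⟨1, by omega⟩
  let c : Fin n := ⟨2, by omega⟩
  have hab : a ≠ b := by
    intro h
    have := congrArg Fin.val h
    simp [a, b] at this
  have hac : a ≠ c := by
    intro h
    have := congrArg Fin.val h
    simp [a, c] at this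
  have hbc : b ≠ c := by
    intro h
    have := congrArg Fin.val h
    simp [b, c] at this
  let pr : Matrix.SpecialLinearGroup (Fin n) F →* Matrix.ProjectiveSpecialLinearGroup (Fin n) F :=
    QuotientGroup.mk' _
  have hk : ∀ x, pr x = 1 → x ∈ center (Matrix.SpecialLinearGroup (Fin n) F) := fun x hx =>
    (QuotientGroup.eq_one_iff _).1 hx
  have hcomm : ∀ s t : F, Commute (tv a b s) (tv a c t) := fun s t => tv_commute hab.symm hac s t
  have hpow : ∀ (i j : Fin n) (t : F) (m : ℕ), (tv i j t) ^ m = tv i j (m * t) := by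
    intro i j t m
    induction m with
    | zero => rw [pow_zero, Nat.cast_zero, zero_mul, tv_zero]
    | succ m ih => rw [pow_succ, ih, ← tv_add]; congr 1; push_cast; ring
  -- the subgroup
  let X : Multiplicative F × Multiplicative F →* Matrix.SpecialLinearGroup (Fin n) F :=
    MonoidHom.mk' (fun st => tv a b (Multiplicative.toAdd st.1) * tv a c (Multiplicative.toAdd st.2)) (by
      rintro ⟨s, t⟩ ⟨s', t'⟩
      show tv a b (Multiplicative.toAdd s + Multiplicative.toAdd s') *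
        tv a c (Multiplicative.toAdd t + Multiplicative.toAdd t') = _
      rw [tv_add, tv_add]
      show _ = tv a b (Multiplicative.toAdd s) * tv a c (Multiplicative.toAdd t) *
        (tv a b (Multiplicative.toAdd s') * tv a c (Multiplicative.toAdd t'))
      rw [mul_assoc, mul_assoc, ← mul_assoc (tv a b (Multiplicative.toAdd s')) (tv a c (Multiplicative.toAdd t)),
        (hcomm (Multiplicative.toAdd s') (Multiplicative.toAdd t)).eq, mul_assoc])
  have hX : ∀ s t : F, X (Multiplicative.ofAdd s, Multiplicative.ofAdd t) = tv a b s * tv a c t := fun _ _ => rfl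
  refine false_of h hρ hd (pr.comp X).range (x₁ := pr (tv a b 1)) (x₂ := pr (tv a c 1)) ?_
    ⟨(Multiplicative.ofAdd 1, Multiplicative.ofAdd 0), ?_⟩ ?_
    ⟨(Multiplicative.ofAdd 0, Multiplicative.ofAdd 1), ?_⟩ ?_ ?_
  · rintro _ ⟨⟨s, t⟩, rfl⟩
    show pr (tv a b (Multiplicative.toAdd s) * tv a c (Multiplicative.toAdd t)) ^ ρ = 1
    rw [← map_pow, (hcomm _ _).mul_pow, hpow, hpow, CharP.cast_eq_zero, zero_mul, zero_mul, tv_zero, tv_zero,
      one_mul, map_one]
  · show pr (X _) = _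
    rw [hX, tv_zero, mul_one]
  · intro h1
    have h2 := mem_center_iff.1 (hk _ h1) (tv b c 1)
    have h3 := tv_comm hab hbc hac (1 : F) 1
    rw [commutatorElement_def, ← h2, mul_one] at h3
    have h4 : tv a c (1 : F) = 1 := by
      rw [← h3]; group
    exact one_ne_zero (tv_eq_one hac h4)
  · show pr (X _) = _
    rw [hX, tv_zero, one_mul]
  · intro h1
    obtain ⟨m, hm⟩ := mem_zpowers_iff.1 h1
    set z := (tv a b (1 : F) ^ m)⁻¹ * tv a c 1 with hz
    have hzc : z ∈ center (Matrix.SpecialLinearGroup (Fin n) F) := by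
      apply hk
      rw [hz, map_mul, map_inv, map_zpow, hm, inv_mul_cancel]
    have h2 : tv a c (1 : F) = tv a b 1 ^ m * z := by rw [hz]; group
    -- commute with `tv c b 1`
    have h3 : tv c b (1 : F) * tv a c 1 = tv a c 1 * tv c b 1 := by
      have h4 : Commute (tv c b (1 : F)) (tv a b 1 ^ m) := (tv_commute hab.symm hbc.symm (1 : F) (1 : F)).zpow_right m
      rw [h2, ← mul_assoc, h4.eq, mul_assoc, mul_assoc, mem_center_iff.1 hzc]
    have h5 := tv_comm hac hbc.symm hab (1 : F) 1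
    rw [commutatorElement_def, ← h3, mul_one] at h5
    have h6 : tv a b (1 : F) = 1 := by
      rw [← h5]; group
    exact one_ne_zero (tv_eq_one hab h6)
  · rintro _ ⟨⟨s, t⟩, rfl⟩
    show Semi ρ (pr (tv a b (Multiplicative.toAdd s) * tv a c (Multiplicative.toAdd t)))
    apply Semi.map
    set s' := Multiplicative.toAdd s
    set t' := Multiplicative.toAdd t
    by_cases hs : s' = 0
    · rw [hs, tv_zero, one_mul]
      exact semi_tv hρ hac t'
    · refine (semi_tv hρ hab s').conj (isConj_iff.2 ⟨tv b c (-(t' / s')), ?_⟩)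
      have h1 := tv_comm hab hbc hac (-s') (-(t' / s'))
      rw [commutatorElement_def, tv_neg, inv_inv] at h1
      have h2 : -s' * -(t' / s') = t' := by field_simp
      rw [h2] at h1
      rw [← h1]
      group

end psl

section psp

open Cfsg Cfsg.Agent.KFacts.MulOdd.TypeA Cfsg.Agent.H531.RMPsp
open scoped Matrix

variable {F : Type*} [Field F] {ρ q m : ℕ}

theorem NN_comm {ι : Type} [Fintype ι] [DecidableEq ι] {a b c d : ι} (hab : a ≠ b) (hcd : c ≠ d) (hac : a ≠ c)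
    (had : a ≠ d) (hbc : b ≠ c) (hbd : b ≠ d) (g k : Matrix (Fin 2) (Fin 2) F) :
    NN a b g * NN c d k = NN c d k * NN a b g := by
  apply Matrix.ext_of_mulVec_single
  intro j
  rw [← Matrix.mulVec_mulVec, ← Matrix.mulVec_mulVec]
  set u := Pi.single (M := fun _ => F) j (1 : F)
  funext i
  by_cases h1 : i = a
  · subst h1
    rw [NN_mulVec_fst hab, NN_mulVec_other _ _ hac had, NN_mulVec_other _ _ hac had, NN_mulVec_other _ _ hbc hbd,
      NN_mulVec_fst hab]
  by_cases h2 : i = b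
  · subst h2
    rw [NN_mulVec_snd hab, NN_mulVec_other _ _ hbc hbd, NN_mulVec_other _ _ hac had, NN_mulVec_other _ _ hbc hbd,
      NN_mulVec_snd hab]
  rw [NN_mulVec_other _ _ h1 h2]
  by_cases h3 : i = c
  · subst h3
    rw [NN_mulVec_fst hcd, NN_mulVec_fst hcd, NN_mulVec_other _ _ hac.symm hbc.symm,
      NN_mulVec_other _ _ had.symm hbd.symm]
  by_cases h4 : i = d
  · subst h4
    rw [NN_mulVec_snd hcd, NN_mulVec_snd hcd, NN_mulVec_other _ _ hac.symm hbc.symm,
      NN_mulVec_other _ _ had.symm hbd.symm]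
  rw [NN_mulVec_other _ _ h3 h4, NN_mulVec_other _ _ h3 h4, NN_mulVec_other _ _ h1 h2]

theorem emb_injective (i₀ : Fin m) :
    Function.Injective (emb i₀ : Matrix.SpecialLinearGroup (Fin 2) F →* Matrix.symplecticGroup (Fin m) F) := by
  have hab : (Sum.inl i₀ : Fin m ⊕ Fin m) ≠ Sum.inr i₀ := Sum.inl_ne_inr
  intro x y hxy
  have h1 : NN (Sum.inl i₀) (Sum.inr i₀) x.1 = NN (Sum.inl i₀) (Sum.inr i₀) y.1 := congrArg Subtype.val hxy
  exact blk_injective hab (Subtype.ext h1)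

theorem emb_comm {i j : Fin m} (hij : i ≠ j) (x y : Matrix.SpecialLinearGroup (Fin 2) F) :
    emb i x * emb j y = emb j y * emb i x := by
  apply Subtype.ext
  exact NN_comm Sum.inl_ne_inr Sum.inl_ne_inr (fun h => hij (Sum.inl_injective h)) Sum.inl_ne_inr Sum.inr_ne_inl
    (fun h => hij (Sum.inr_injective h)) _ _

/-- **The symplectic groups.** -/
theorem psp [Finite F] [CharP F ρ] (hm : 2 ≤ m) (hd : q ∣ ρ - 1) (h : NCtx' q (PSp m F)) : False := by
  have hρ : ρ.Prime := charP_data (F := F)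
  have hfin' : Finite (PSp m F) := Quotient.finite _
  refine false_of_pair (K := F) (QuotientGroup.mk' (center (Matrix.symplecticGroup (Fin m) F))) ?_
    (emb ⟨0, by omega⟩) (emb ⟨1, by omega⟩) (emb_injective _) (emb_injective _) (emb_comm ?_) h hρ hd
  · rw [QuotientGroup.ker_mk']
  · intro h
    have := congrArg Fin.val h
    simp at this

end psp

section psu

open Cfsg

variable {F : Type*} [Field F] [Fintype F] {ρ q n u : ℕ} [CharP F ρ]

/-- **The unitary groups, `n ≥ 4`.** -/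
theorem psu_four (hF : Fintype.card F = u ^ 2) (hn : 4 ≤ n) (hd : q ∣ ρ - 1) (h : NCtx' q (PSU n F u)) : False := by
  have hρ : ρ.Prime := charP_data (F := F)
  have hfin' : Finite (PSU n F u) := Quotient.finite _
  obtain ⟨K, _, _, hK, hf⟩ := Cfsg.Agent.H356.KillPSU.exists_blocks hF
  obtain ⟨f, hi, hc⟩ := hf n
  have : CharP K ρ := by
    obtain ⟨p, hp⟩ := CharP.exists K
    obtain ⟨a, hp1, ha⟩ := FiniteField.card K p
    obtain ⟨b, _, hb⟩ := FiniteField.card F ρ
    have h1 : p ∣ ρ ^ (b : ℕ) := by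
      rw [← hb, hF, ← hK, ha, ← pow_mul]
      exact dvd_pow_self p (by have := a.pos; omega)
    have h2 := (Nat.prime_dvd_prime_iff_eq hp1 hρ).1 (hp1.dvd_of_dvd_pow h1)
    rwa [h2] at hp
  exact false_of_pair (K := K) (QuotientGroup.mk' (center (SU n F u))) (by rw [QuotientGroup.ker_mk'])
    (f 0 (by omega)) (f 2 (by omega)) (hi _ _) (hi _ _) (hc _ _ _ _ (by omega)) h hρ hd

/-- `PSU₃(u)` has no elements of order `q ρ`. -/
theorem psu_three (hF : Fintype.card F = u ^ 2) (hd : q ∣ ρ - 1) (h : NCtx' q (PSU 3 F u)) : False := by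
  have hρ : ρ.Prime := charP_data (F := F)
  have : Fact ρ.Prime := ⟨hρ⟩
  have hfin' : Finite (PSU 3 F u) := Quotient.finite _
  have hρ2 : ρ ≠ 2 := by
    rintro rfl
    exact absurd (Nat.le_of_dvd (by norm_num) hd) (by have := h.prime.two_le; omega)
  have hu2 : 2 ≤ u := Cfsg.Agent.ClassicalGeometry.GUBasic.two_le hF
  obtain ⟨b, _, hb⟩ := FiniteField.card F ρ
  obtain ⟨a, ha⟩ : ∃ a, u = ρ ^ a := by
    have h5 : u ∣ ρ ^ (b : ℕ) := by rw [← hb, hF, pow_two]; exact dvd_mul_right _ _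
    obtain ⟨a, _, ha⟩ := (Nat.dvd_prime_pow hρ).1 h5
    exact ⟨a, ha⟩
  have ha1 : 1 ≤ a := by
    rcases Nat.eq_zero_or_pos a with h1 | h1
    · rw [h1, pow_zero] at ha; omega
    · exact h1
  have hρu : ρ ∣ u := by rw [ha]; exact dvd_pow_self _ (by omega)
  -- `ρ` is prime to `u + 1`, `u² - 1`, `u² - u + 1`
  have n1 : ¬ ρ ∣ u + 1 := fun h1 => hρ.one_lt.ne' (Nat.dvd_one.1 ((Nat.dvd_add_right hρu).1 h1))
  have hle : u ≤ u ^ 2 := Nat.le_self_pow two_ne_zero u
  have n2 : ¬ ρ ∣ u ^ 2 - 1 := by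
    intro h1
    have h2 : ρ ∣ u ^ 2 - 1 + 1 → ρ ∣ 1 := fun h3 => (Nat.dvd_add_right h1).1 h3
    refine hρ.one_lt.ne' (Nat.dvd_one.1 (h2 ?_))
    rw [Nat.sub_add_cancel (by omega)]
    exact dvd_pow hρu two_ne_zero
  have n3 : ¬ ρ ∣ u ^ 2 - u + 1 := by
    intro h1
    refine hρ.one_lt.ne' (Nat.dvd_one.1 ((Nat.dvd_add_right ?_).1 h1))
    exact Nat.dvd_sub (dvd_pow hρu two_ne_zero) hρu
  have nd : ∀ {k m : ℕ}, ¬ ρ ∣ k → m ∣ k → ¬ ρ ∣ m := fun h1 h2 h3 => h1 (h3.trans h2)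
  have hg3 : Nat.gcd 3 (u + 1) ∣ u ^ 2 - u + 1 := by
    rcases (Nat.dvd_prime Nat.prime_three).1 (Nat.gcd_dvd_left 3 (u + 1)) with hc | hc
    · rw [hc]; exact one_dvd _
    · obtain ⟨w, hw⟩ : 3 ∣ u + 1 := by rw [← hc]; exact Nat.gcd_dvd_right _ _
      rw [hc]
      have h6 : ((3 : ℕ) : ℤ) ∣ ((u ^ 2 - u + 1 : ℕ) : ℤ) := by
        rw [Nat.cast_add, Nat.cast_sub hle]
        have h5 : (u : ℤ) = 3 * w - 1 := by omega
        rw [Nat.cast_pow, h5]
        exact ⟨3 * (w : ℤ) ^ 2 - 3 * w + 1, by push_cast; ring⟩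
      exact_mod_cast h6
  -- the Sylow subgroup is not cyclic
  let P : Sylow ρ (PSU 3 F u) := default
  have hcard := Cfsg.Agent.S0280.result hF 3 (by norm_num)
  have hnc : ¬ IsCyclic P := by
    intro hc
    obtain ⟨x, hx⟩ := hc.exists_generator
    have h1 : orderOf (x : PSU 3 F u) = Nat.card P := by
      rw [Subgroup.orderOf_coe]
      exact orderOf_eq_card_of_forall_mem_zpowers hx
    have h2 : ρ ^ 2 ∣ Nat.card P := by
      apply P.pow_dvd_card_of_pow_dvd_card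
      have h3 : ρ ^ 2 ∣ Nat.gcd 3 (u + 1) * ((u + 1) * Nat.card (PSU 3 F u)) := by
        rw [hcard]
        refine Dvd.dvd.mul_right ?_ _
        exact (pow_dvd_pow_of_dvd hρu 2).trans (pow_dvd_pow u (by norm_num))
      have c1 : Nat.Coprime (ρ ^ 2) (u + 1) := Nat.Coprime.pow_left 2 ((Nat.Prime.coprime_iff_not_dvd hρ).2 n1)
      have c2 : Nat.Coprime (ρ ^ 2) (Nat.gcd 3 (u + 1)) := c1.coprime_dvd_right (Nat.gcd_dvd_right _ _)
      exact c1.dvd_of_dvd_mul_left (c2.dvd_of_dvd_mul_left h3)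
    rw [← h1] at h2
    have hdv := Cfsg.Agent.H124.SUThreeEig.orderOf_dvd hF ρ (x : PSU 3 F u)
    have h3 : ρ ∣ orderOf (x : PSU 3 F u) := (dvd_pow_self ρ two_ne_zero).trans h2
    rcases hdv with h4 | h4 | h4 | h4 | ⟨h4, -⟩
    · exact n1 (h3.trans h4)
    · have h5 := h2.trans h4
      rw [pow_two] at h5
      have h6 := Nat.dvd_of_mul_dvd_mul_left hρ.pos h5
      exact n1 (h6.trans (Nat.div_dvd_of_dvd (Nat.gcd_dvd_right _ _)))
    · exact nd n2 (Nat.div_dvd_of_dvd ((Nat.gcd_dvd_right _ _).trans (Cfsg.Agent.H127.PSUThreeEx.succ_dvd u))) (h3.trans h4)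
    · exact nd n3 (Nat.div_dvd_of_dvd hg3) (h3.trans h4)
    · exact hρ2 h4
  obtain ⟨x, hx, hxo, hn⟩ := h.noncyc ρ hρ hρ2 P P.isPGroup' hnc
  obtain ⟨-, Q, hQ, -⟩ := hn
  have : Fact q.Prime := ⟨h.prime⟩
  obtain ⟨y, hy⟩ := exists_prime_orderOf_dvd_card' (G := Q) q (Q.dvd_card_of_dvd_card h.dvd)
  have hqρ : q ≠ ρ := by
    rintro rfl
    have := Nat.le_of_dvd (by have := hρ.two_le; omega) hd
    have := hρ.two_le
    omega
  have hyo : orderOf (y : PSU 3 F u) = q := by rw [Subgroup.orderOf_coe, hy]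
  have hc : Commute (y : PSU 3 F u) x := hQ y y.2
  have hz : orderOf ((y : PSU 3 F u) * x) = q * ρ := by
    rw [hc.orderOf_mul_eq_mul_orderOf_of_coprime, hyo, hxo]
    rw [hyo, hxo]
    exact (Nat.coprime_primes h.prime hρ).2 hqρ
  have hdv := Cfsg.Agent.H124.SUThreeEig.orderOf_dvd hF ρ ((y : PSU 3 F u) * x)
  rw [hz] at hdv
  rcases hdv with h4 | h4 | h4 | h4 | ⟨h4, -⟩
  · exact n1 ((dvd_mul_left ρ q).trans h4)
  · have h5 : q ∣ u + 1 := by
      rcases (h.prime.dvd_mul).1 ((dvd_mul_right q ρ).trans h4) with h6 | h6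
      · exact absurd ((Nat.prime_dvd_prime_iff_eq h.prime hρ).1 h6) hqρ
      · exact h6.trans (Nat.div_dvd_of_dvd (Nat.gcd_dvd_right _ _))
    have h6 : q ∣ u - 1 := by
      refine hd.trans ?_
      rw [ha]
      simpa using Nat.sub_dvd_pow_sub_pow ρ 1 a
    have h7 : q ∣ 2 := by
      have h8 := Nat.dvd_sub h5 h6
      have h9 : u + 1 - (u - 1) = 2 := by omega
      rwa [h9] at h8
    exact h.odd ((Nat.prime_dvd_prime_iff_eq h.prime Nat.prime_two).1 h7)
  · exact nd n2 (Nat.div_dvd_of_dvd ((Nat.gcd_dvd_right _ _).trans (Cfsg.Agent.H127.PSUThreeEx.succ_dvd u)))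
      ((dvd_mul_left ρ q).trans h4)
  · exact nd n3 (Nat.div_dvd_of_dvd hg3) ((dvd_mul_left ρ q).trans h4)
  · exact hρ2 h4

/-- **The unitary groups.** -/
theorem psu (hF : Fintype.card F = u ^ 2) (hn : 3 ≤ n) (hd : q ∣ ρ - 1) (h : NCtx' q (PSU n F u)) : False := by
  rcases hn.eq_or_lt with rfl | hn
  · exact psu_three hF hd h
  · exact psu_four hF hn hd h

end psu

section orth

open QuadraticMap Cfsg Cfsg.Agent.LieClassical.OrthCore Cfsg.Agent.LieClassical.OrthTrans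
open Cfsg.Agent.ClassicalGeometry.OrthSemi Cfsg.Agent.ClassicalGeometry.OrthSemiCount
open Cfsg.Agent.ClassicalGeometry.OrthSemiForms Cfsg.Agent.LieClassical.OrthSimple
  Cfsg.Agent.LieClassical.OrthForms
open Cfsg.Agent.H254 Cfsg.Agent.H254.Orth Cfsg.Agent.H522.RealOrth
open Cfsg.Agent.ClassicalGeometry.OrthAut1 (P)
open Cfsg.Agent.UGT.U2.FOne.Orth (Four)
open Matrix (SpecialLinearGroup)

section lin

variable {F V : Type*} [Field F] [AddCommGroup V] [Module F V] {Q : QuadraticForm F V} {e₁ f₁ e₂ f₂ : V}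

theorem phi_swap_comm (h : Four Q e₁ f₁ e₂ f₂) (M N : SpecialLinearGroup (Fin 2) F) (v : V) :
    h.phi M (h.swap.phi N v) = h.swap.phi N (h.phi M v) := by
  have key : ∀ w : V, h.phi M w = w + ((M.1 0 0 - 1) * polar Q f₁ w + M.1 0 1 * polar Q f₂ w) • e₁
    + (M.1 1 0 * polar Q f₁ w + (M.1 1 1 - 1) * polar Q f₂ w) • e₂
    + ((M.1 1 1 - 1) * polar Q e₁ w - M.1 1 0 * polar Q e₂ w) • f₁
    + (-M.1 0 1 * polar Q e₁ w + (M.1 0 0 - 1) * polar Q e₂ w) • f₂ := fun w => rfl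
  have key' : ∀ w : V, h.swap.phi N w = w + ((N.1 0 0 - 1) * polar Q f₁ w + N.1 0 1 * polar Q e₂ w) • e₁
    + (N.1 1 0 * polar Q f₁ w + (N.1 1 1 - 1) * polar Q e₂ w) • f₂
    + ((N.1 1 1 - 1) * polar Q e₁ w - N.1 1 0 * polar Q f₂ w) • f₁
    + (-N.1 0 1 * polar Q e₁ w + (N.1 0 0 - 1) * polar Q f₂ w) • e₂ := fun w => rfl
  rw [key (h.swap.phi N v), key' (h.phi M v), h.swap.polar_f1, h.swap.polar_f2, h.swap.polar_e1, h.swap.polar_e2,
    h.polar_f1, h.polar_f2, h.polar_e1, h.polar_e2, key v, key' v]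
  module

theorem rho_swap_comm (h : Four Q e₁ f₁ e₂ f₂) (M N : SpecialLinearGroup (Fin 2) F) :
    h.rho M * h.swap.rho N = h.swap.rho N * h.rho M := by
  ext v
  exact phi_swap_comm h M N v

theorem rhoP_swap_comm (h : Four Q e₁ f₁ e₂ f₂) (M N : SpecialLinearGroup (Fin 2) F) :
    h.rhoP M * h.swap.rhoP N = h.swap.rhoP N * h.rhoP M := by
  rw [h.rhoP_apply, h.swap.rhoP_apply, ← QuotientGroup.mk_mul, ← QuotientGroup.mk_mul]
  congr 1
  apply Subtype.ext
  exact rho_swap_comm h M N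

end lin

variable {F : Type*} [Field F] [Finite F] {ρ q : ℕ} [CharP F ρ]

theorem orth {ι : Type} [Fintype ι] [DecidableEq ι]
    {Q : QuadraticForm F (ι → F)} {e₁ f₁ e₂ f₂ : ι → F} (hG : Good Q) (h : Four Q e₁ f₁ e₂ f₂)
    (hd : q ∣ ρ - 1) (hN : NCtx' q (POmega F ⇑Q)) : False := by
  have hρ : ρ.Prime := charP_data (F := F)
  have hfin' : Finite (POmega F ⇑Q) := inferInstance
  refine false_of_pair (K := F) (MonoidHom.id _) ?_ (jj hG h) (jj hG h.swap) (jj_injective hG h)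
    (jj_injective hG h.swap) ?_ hN hρ hd
  · rw [(MonoidHom.ker_eq_bot_iff _).2 Function.injective_id]
    exact bot_le
  · intro a b
    show (pomegaEquiv hG).symm (h.rhoP a) * (pomegaEquiv hG).symm (h.swap.rhoP b) = _
    rw [← map_mul, rhoP_swap_comm, map_mul]
    rfl

theorem orth' {ι : Type} [Fintype ι] [DecidableEq ι] {Q : QuadraticForm F (ι → F)} {e₁ f₁ e₂ f₂ : ι → F}
    {r : (ι → F) → F} (hr : ⇑Q = r) (hG : Good Q) (h : Four Q e₁ f₁ e₂ f₂) (hd : q ∣ ρ - 1)
    (hN : NCtx' q (POmega F r)) : False := by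
  subst hr
  exact orth hG h hd hN

theorem odd_char {ρ' q' : ℕ} (hρ : ρ'.Prime) (hq : q'.Prime) (hd : q' ∣ ρ' - 1) : ρ' ≠ 2 := by
  rintro rfl
  exact absurd (Nat.le_of_dvd (by norm_num) hd) (by have := hq.two_le; omega)

/-- **`Ω_{2m+1}(F)`** -/
theorem omega_odd [Fintype F] {m : ℕ} (hm : 3 ≤ m) (hd : q ∣ ρ - 1) (hN : NCtx' q (POmega F (quadFormOdd m F))) : False := by
  have hρ : ρ.Prime := charP_data (F := F)
  have h20 : (2 : F) ≠ 0 := by
    intro h
    have h1 : ρ ∣ 2 := (CharP.cast_eq_zero_iff F ρ 2).1 (by exact_mod_cast h)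
    exact odd_char hρ hN.prime hd ((Nat.prime_dvd_prime_iff_eq hρ Nat.prime_two).1 h1)
  obtain ⟨M, e₁, f₁, e₂, f₂, h4, hM⟩ := odd_fx h20 (m := m) (by omega) (RingEquiv.refl F)
  exact orth' (coe_oddForm m F) (good_odd (F := F) (m := m) (by omega) h20) h4 hd hN

/-- **`PΩ⁺_{2m}(F)`** -/
theorem omega_plus [Fintype F] {m : ℕ} (hm : 4 ≤ m) (hd : q ∣ ρ - 1) (hN : NCtx' q (POmega F (quadFormPlus m F))) : False := by
  obtain ⟨M, e₁, f₁, e₂, f₂, h4, hM⟩ := plus_fx (F := F) (m := m) (by omega) (RingEquiv.refl F)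
  exact orth' (coe_plusForm m F) (good_plus (F := F) (m := m) (by omega)) h4 hd hN

/-- **`PΩ⁻_{2m}(F)`** -/
theorem omega_minus [Fintype F] {m : ℕ} (hm : 4 ≤ m) (a b : F)
    (hab : ∀ z₁ z₂ : F, z₁ ^ 2 + a * z₁ * z₂ + b * z₂ ^ 2 = 0 → z₁ = 0 ∧ z₂ = 0) (hd : q ∣ ρ - 1)
    (hN : NCtx' q (POmega F (quadFormMinus (m - 1) F a b))) : False := by
  obtain ⟨M, e₁, f₁, e₂, f₂, h4, hM⟩ := minus_fx (F := F) (m := m - 1) (by omega) a b hab (RingEquiv.refl F)
  exact orth' (coe_minusForm (m - 1) F a b) (good_minus (F := F) (m := m - 1) (by omega) a b hab) h4 hd hN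

end orth

/-- **Row R3 for the classical groups:** only `PSL₂(F)` is left. -/
theorem classical {T : Type*} [Group T] [Finite T] {ρ q : ℕ} (hd : q ∣ ρ - 1) (h : NCtx' q T)
    (hT : Cfsg.IsPSLChar ρ T ∨ Cfsg.IsPSpChar ρ T ∨ Cfsg.IsPSUChar ρ T ∨ Cfsg.IsPOmegaOddChar ρ T ∨
      Cfsg.IsPOmegaPlusChar ρ T ∨ Cfsg.IsPOmegaMinusChar ρ T) :
    ∃ (F : Type) (_ : Field F) (_ : Fintype F) (_ : CharP F ρ), 4 ≤ Fintype.card F ∧
      Nonempty (T ≃* Matrix.ProjectiveSpecialLinearGroup (Fin 2) F) := by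
  rcases hT with hT | hT | hT | hT | hT | hT
  · obtain ⟨F, _, _, _, n, hn, h4, ⟨e⟩⟩ := hT
    rcases hn.eq_or_lt with rfl | hn
    · exact ⟨F, inferInstance, inferInstance, inferInstance, h4 rfl, ⟨e⟩⟩
    · exact (psl hn hd (ctx_of_equiv e h)).elim
  · obtain ⟨F, _, _, _, m, hm, -, ⟨e⟩⟩ := hT
    exact (psp hm hd (ctx_of_equiv e h)).elim
  · obtain ⟨F, _, _, _, n, u, hF, hn, -, ⟨e⟩⟩ := hT
    exact (psu hF hn hd (ctx_of_equiv e h)).elim
  · obtain ⟨F, _, _, _, m, hm, -, ⟨e⟩⟩ := hT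
    exact (omega_odd hm hd (ctx_of_equiv e h)).elim
  · obtain ⟨F, _, _, _, m, hm, ⟨e⟩⟩ := hT
    exact (omega_plus hm hd (ctx_of_equiv e h)).elim
  · obtain ⟨F, _, _, _, m, a, b, hm, hab, ⟨e⟩⟩ := hT
    exact (omega_minus hm a b hab hd (ctx_of_equiv e h)).elim

end Cfsg.Agent.H587.NRow
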